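import Mathlib

/-!
# Even permutations fixing a point are products of `p`-cycles fixing the point (helper487, for S3618)
-/

set_option autoImplicit false

namespace Cfsg.Agent.H487.Red

open Equiv Equiv.Perm

variable {α : Type*} [Fintype α] [DecidableEq α]

/-- a three-cycle is a quotient of two `p`-cycles -/
theorem three_cycle_mem {p : ℕ} (hp : 3 ≤ p) (hc : p ≤ Fintype.card α) {Q : Subgroup (Perm α)}
    (hQ : ∀ ρ : Perm α, ρ.cycleType = {p} → ρ ∈ Q) {σ : Perm α} (hσ : σ.IsThreeCycle) : σ ∈ Q := by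
  obtain ⟨ρ, hρ⟩ : ∃ ρ : Perm α, ρ.cycleType = {p} := by
    rw [exists_with_cycleType_iff]
    refine ⟨by rw [Multiset.sum_singleton]; exact hc, fun a ha => ?_⟩
    rw [Multiset.mem_singleton] at ha
    omega
  have hcyc : ρ.IsCycle := card_cycleType_eq_one.1 (by rw [hρ, Multiset.card_singleton])
  have hsup : ρ.support.card = p := by
    have := sum_cycleType ρ
    rw [hρ, Multiset.sum_singleton] at this
    exact this.symm
  have hord : orderOf ρ = p := by rw [hcyc.orderOf, hsup]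
  obtain ⟨x, hx⟩ : ∃ x, x ∈ ρ.support := Finset.card_pos.1 (by omega)
  rw [mem_support] at hx
  have h12 : ρ x ≠ x := hx
  have h23 : ρ (ρ x) ≠ ρ x := fun h => hx (ρ.injective h)
  have h13 : ρ (ρ x) ≠ x := by
    intro h
    have h1 : (ρ ^ 2) x = x := h
    have h2 : ρ ^ 2 = 1 := (hcyc.pow_eq_one_iff' hx).2 h1
    have h3 := orderOf_dvd_of_pow_eq_one h2
    rw [hord] at h3
    have := Nat.le_of_dvd (by norm_num) h3
    omega
  obtain ⟨t, ht⟩ : ∃ t, t = swap x (ρ x) := ⟨_, rfl⟩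
  have htt : t * t = 1 := by rw [ht, swap_mul_self]
  have h1 : ρ * (t * ρ * t)⁻¹ = swap (ρ x) (ρ (ρ x)) * swap (ρ x) x := by
    have e1 : ρ * t * ρ⁻¹ = swap (ρ x) (ρ (ρ x)) := by rw [ht, mul_swap_eq_swap_mul, mul_inv_cancel_right]
    have e2 : t⁻¹ = t := inv_eq_of_mul_eq_one_left htt
    calc ρ * (t * ρ * t)⁻¹ = ρ * t⁻¹ * ρ⁻¹ * t⁻¹ := by group
      _ = swap (ρ x) (ρ (ρ x)) * swap (ρ x) x := by rw [e2, e1, ht, swap_comm x]
  have h2 : (ρ * (t * ρ * t)⁻¹).IsThreeCycle := by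
    rw [h1]
    exact isThreeCycle_swap_mul_swap_same (Ne.symm h23) h12 h13
  -- conjugate
  have h3 : IsConj (ρ * (t * ρ * t)⁻¹) σ := by
    rw [isConj_iff_cycleType_eq, h2.cycleType, hσ.cycleType]
  obtain ⟨π, hπ⟩ := isConj_iff.1 h3
  have h4 : π * ρ * π⁻¹ ∈ Q := hQ _ (by rw [cycleType_conj, hρ])
  have h5 : (π * t) * ρ * (π * t)⁻¹ ∈ Q := hQ _ (by rw [cycleType_conj, hρ])
  have h6 : σ = (π * ρ * π⁻¹) * ((π * t) * ρ * (π * t)⁻¹)⁻¹ := by
    have e2 : t⁻¹ = t := inv_eq_of_mul_eq_one_left htt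
    rw [← hπ, mul_inv_rev π t, e2]
    group
  rw [h6]
  exact mul_mem h4 (inv_mem h5)

/-- **generation** -/
theorem even_mem {p : ℕ} (hp : 3 ≤ p) (hc : p + 1 ≤ Fintype.card α) {Q : Subgroup (Perm α)} {y : α}
    (hQ : ∀ ρ : Perm α, ρ.cycleType = {p} → ρ y = y → ρ ∈ Q) {σ : Perm α} (hσ : sign σ = 1) (hy : σ y = y) :
    σ ∈ Q := by
  have h1 : ∀ x, x ≠ y ↔ σ x ≠ y := fun x => by
    rw [not_iff_not]
    constructor
    · rintro rfl; exact hy
    · intro h; exact σ.injective (h.trans hy.symm)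
  obtain ⟨τ, hτ⟩ : ∃ τ : Perm {x // x ≠ y}, τ = σ.subtypePerm (p := fun x => x ≠ y) (fun x => (h1 x).symm) := ⟨_, rfl⟩
  have h2 : ofSubtype τ = σ := by
    rw [hτ]
    exact ofSubtype_subtypePerm (fun x => (h1 x).symm) fun x hx => by
      rintro rfl
      exact hx hy
  have h3 : sign τ = 1 := by rw [← hσ, ← h2, sign_ofSubtype]
  have h4 : τ ∈ alternatingGroup {x // x ≠ y} := h3
  rw [← closure_three_cycles_eq_alternating] at h4
  have hcard : p ≤ Fintype.card {x // x ≠ y} := by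
    rw [Fintype.card_subtype_compl, Fintype.card_subtype_eq]
    omega
  have h5 : Subgroup.closure {σ : Perm {x // x ≠ y} | σ.IsThreeCycle} ≤ Q.comap ofSubtype := by
    rw [Subgroup.closure_le]
    intro σ' hσ'
    refine three_cycle_mem hp hcard (fun ρ hρ => ?_) hσ'
    rw [Subgroup.mem_comap]
    refine hQ _ ?_ (ofSubtype_apply_of_not_mem _ (by simp))
    rw [cycleType_ofSubtype, hρ]
  have h6 := h5 h4
  rwa [Subgroup.mem_comap, h2] at h6

end Cfsg.Agent.H487.Red
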